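import Cfsg.Agent.StChar.SU

/-!
Subgroups containing the unipotent radical of a split BN-pair are normalised by the Borel subgroup.
-/

set_option autoImplicit false

namespace CfsgLib.PronPSU

open CfsgLib.StChar

variable {G : Type*} [Group G] [Finite G] (D : Apt G)

/-- The union of the cells. -/
def cells : Set G := {g | ∃ u ∈ D.U, ∃ n ∈ D.N, ∃ v ∈ D.U, g = u * n * v}

variable {p : ℕ} (hU : IsPGroup p D.U) (hpB : ∀ g ∈ D.B, (∃ j : ℕ, g ^ p ^ j = 1) → g ∈ D.U)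
include hU hpB

theorem conj_mem_U {x : G} (hx : x ∈ D.U) {n : G} (h : n⁻¹ * x * n ∈ D.B) : n⁻¹ * x * n ∈ D.U := by
  obtain ⟨j, hj⟩ := hU ⟨x, hx⟩
  refine hpB _ h ⟨j, ?_⟩
  have hj' : x ^ p ^ j = 1 := congrArg Subtype.val hj
  rw [show n⁻¹ * x * n = n⁻¹ * x * n⁻¹⁻¹ by rw [inv_inv], conj_pow, hj']
  simp

theorem bruhat (g : G) : g ∈ cells D := by
  let M : Submonoid G :=
    { carrier := {g | ∀ y ∈ cells D, g * y ∈ cells D}
      one_mem' := fun y hy => by rwa [one_mul]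
      mul_mem' := fun {a b} ha hb y hy => by rw [mul_assoc]; exact ha _ (hb y hy) }
  have hM : g ∈ M := by
    have hg : g ∈ Subgroup.closure ((D.U : Set G) ∪ D.S ∪ {t | t ∈ D.N ∧ t ∈ D.B}) := by
      rw [D.gen]; trivial
    rw [← Subgroup.mem_toSubmonoid, Subgroup.closure_toSubmonoid_of_finite] at hg
    refine (Submonoid.closure_le (S := M)).2 ?_ hg
    rintro a ((ha | ha) | ha) _ ⟨u, hu, n, hn, v, hv, rfl⟩
    · exact ⟨a * u, mul_mem ha hu, n, hn, v, hv, by group⟩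
    · obtain ⟨u', hu', x, hx, hau, rfl⟩ := D.factor a ha u hu
      have haN := D.S_sub ha
      rcases D.dich a ha n hn with h | h
      · exact ⟨a * u' * a⁻¹, hau, a * n, mul_mem haN hn, n⁻¹ * x * n * v,
          mul_mem (conj_mem_U D hU hpB (D.X_le a ha hx) (h x hx)) hv, by group⟩
      · rcases eq_or_ne x 1 with rfl | hx1
        · exact ⟨a * u' * a⁻¹, hau, a * n, mul_mem haN hn, v, hv, by group⟩
        obtain ⟨x', hx', t, htN, x'', hx'', htB, e⟩ := D.rank1 a ha x hx hx1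
        set t' := n⁻¹ * (a * a) * n with ht'
        have ht'B : t' ∈ D.B := by
          have := D.normal n⁻¹ (inv_mem hn) _ (mul_mem haN haN) (D.sq a ha)
          rwa [inv_inv] at this
        have ht'N : t' ∈ D.N := mul_mem (mul_mem (inv_mem hn) (mul_mem haN haN)) hn
        have hw : t' * ((a * n)⁻¹ * x'' * (a * n)) * t'⁻¹ ∈ D.U :=
          D.normU t' ht'N ht'B _ (conj_mem_U D hU hpB (D.X_le a ha hx'') (h x'' hx''))
        refine ⟨a * u' * a⁻¹ * x', mul_mem hau (D.X_le a ha hx'), a * t * (a⁻¹ * n),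
          mul_mem (mul_mem haN htN) (mul_mem (inv_mem haN) hn),
          t' * ((a * n)⁻¹ * x'' * (a * n)) * t'⁻¹ * v, mul_mem hw hv, ?_⟩
        calc a * (u' * x * n * v) = a * u' * a⁻¹ * (a * x * a) * (a⁻¹ * n) * v := by group
          _ = _ := by rw [e, ht']; group
    · exact ⟨a * u * a⁻¹, D.normU a ha.1 ha.2 u hu, a * n, mul_mem ha.1 hn, v, hv, by group⟩
  have := hM 1 ⟨1, one_mem _, 1, one_mem _, 1, one_mem _, by group⟩
  rwa [mul_one] at this

theorem overgroup_normalised [Fact p.Prime]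
    (hsep : ∀ n ∈ D.N, n ∉ D.B → ∃ u ∈ D.U, ∀ n' ∈ D.N, n'⁻¹ * u * n ∉ D.B)
    (hcomm : ∀ a ∈ D.B, ∀ b ∈ D.B, a * b * a⁻¹ * b⁻¹ ∈ D.U)
    {H : Subgroup G} (hUH : D.U ≤ H) {g : G} (hg : g ∈ D.B) :
    g ∈ Subgroup.normalizer (H : Set G) := by
  classical
  obtain ⟨P, hP⟩ := D.U_sylow hU hpB hsep
  set E := Subgroup.closure {x | ∃ n ∈ D.N, n ∈ H ∧ ∃ y ∈ D.U, x = n * y * n⁻¹} with hE
  have hEH : E ≤ H := (Subgroup.closure_le _).2 (by
    rintro _ ⟨n, -, hn, y, hy, rfl⟩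
    exact mul_mem (mul_mem hn (hUH hy)) (inv_mem hn))
  have hUE : D.U ≤ E := fun y hy =>
    Subgroup.subset_closure ⟨1, one_mem _, one_mem _, y, hy, by group⟩
  obtain ⟨u₀, hu₀, t, ht, v₀, hv₀, e₀⟩ := bruhat D hU hpB g
  have htB : t ∈ D.B := by
    rw [show t = u₀⁻¹ * g * v₀⁻¹ by rw [e₀]; group]
    exact mul_mem (mul_mem (inv_mem (D.U_le hu₀)) hg) (inv_mem (D.U_le hv₀))
  have htE : ∀ x ∈ E, t * x * t⁻¹ ∈ E := by
    intro x hx
    induction hx using Subgroup.closure_induction with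
    | mem x hx =>
      obtain ⟨n, hn, hnH, y, hy, rfl⟩ := hx
      have h1 : n⁻¹ * t * n ∈ D.B := by
        have := D.normal n⁻¹ (inv_mem hn) t ht htB
        rwa [inv_inv] at this
      exact Subgroup.subset_closure ⟨n, hn, hnH, _,
        D.normU (n⁻¹ * t * n) (mul_mem (mul_mem (inv_mem hn) ht) hn) h1 y hy, by group⟩
    | one => simp
    | mul a b _ _ ha hb => simpa [mul_assoc] using mul_mem ha hb
    | inv a _ ha => simpa [mul_assoc] using inv_mem ha
  have hgE : ∀ x ∈ E, g * x * g⁻¹ ∈ E := by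
    intro x hx
    have h1 := mul_mem (mul_mem (hUE hu₀) (htE _ (mul_mem (mul_mem (hUE hv₀) hx)
      (inv_mem (hUE hv₀))))) (inv_mem (hUE hu₀))
    rw [e₀]
    simpa [mul_assoc] using h1
  refine Subgroup.mem_normalizer_iff_map_conj_eq.2 (Subgroup.eq_of_le_of_card_ge ?_
    (by rw [Subgroup.card_map_of_injective (MulAut.conj g).injective]))
  rintro _ ⟨h, hh, rfl⟩
  show g * h * g⁻¹ ∈ H
  obtain ⟨u, hu, n, hn, v, hv, eh⟩ := bruhat D hU hpB h
  have hnH : n ∈ H := by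
    rw [show n = u⁻¹ * h * v⁻¹ by rw [eh]; group]
    exact mul_mem (mul_mem (inv_mem (hUH hu)) hh) (inv_mem (hUH hv))
  have hconj : ((h • P : Sylow p G) : Subgroup G) ≤ E := by
    rw [Sylow.coe_subgroup_smul, hP]
    rintro _ ⟨y, hy, rfl⟩
    show h * y * h⁻¹ ∈ E
    have h1 : n * (v * y * v⁻¹) * n⁻¹ ∈ E :=
      Subgroup.subset_closure ⟨n, hn, hnH, _, mul_mem (mul_mem hv hy) (inv_mem hv), rfl⟩
    rw [show h * y * h⁻¹ = u * (n * (v * y * v⁻¹) * n⁻¹) * u⁻¹ by rw [eh]; group]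
    exact mul_mem (mul_mem (hUE hu) h1) (inv_mem (hUE hu))
  obtain ⟨⟨e, he⟩, heq⟩ := MulAction.exists_smul_eq E
    (P.subtype (hP ▸ hUE : (P : Subgroup G) ≤ E)) ((h • P).subtype hconj)
  rw [Sylow.smul_subtype] at heq
  have heq' : e • P = h • P := Sylow.subtype_injective heq
  have hm : e⁻¹ * h ∈ Subgroup.normalizer ((P : Subgroup G) : Set G) :=
    Sylow.smul_eq_iff_mem_normalizer.1 (by rw [mul_smul, ← heq', inv_smul_smul])
  rw [hP] at hm
  set m := e⁻¹ * h with hmd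
  have hmB : m ∈ D.B := D.mem_B_of_normalizes hsep fun y hy => by
    have := (Subgroup.mem_normalizer_iff.1 (inv_mem hm) y).1 hy
    simpa using this
  have hmH : m ∈ H := mul_mem (inv_mem (hEH he)) hh
  rw [show g * h * g⁻¹ = g * e * g⁻¹ * ((g * m * g⁻¹ * m⁻¹) * m) by rw [hmd]; group]
  exact mul_mem (hEH (hgE e he)) (mul_mem (hUH (hcomm g hg m hmB)) hmH)

omit hU hpB

section
variable {F ι P : Type*} [Field F] [Fintype ι] [DecidableEq ι] [PartialOrder P] [Finite P]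
  (S : Sys G F ι P)

theorem sys_sep {n : G} (hn : n ∈ S.apt.N) (hnB : n ∉ S.apt.B) :
    ∃ u ∈ S.apt.U, ∀ n' ∈ S.apt.N, n'⁻¹ * u * n ∉ S.apt.B := by
  obtain ⟨ρ, hρ, hn⟩ := hn
  have hρ1 : ρ⁻¹ ≠ 1 := by
    intro e
    rw [inv_eq_one] at e
    subst e
    exact hnB (S.upper_of_mono_one hn)
  obtain ⟨s, hs, a, b, hR, hnot⟩ : ∃ s ∈ S.S, ∃ a b, S.R s a b ∧ ¬ ρ⁻¹ a < ρ⁻¹ b := by
    by_contra hc
    push Not at hc
    exact hρ1 (S.sepW _ (inv_mem hρ) fun s hs a b h => hc s hs a b h)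
  obtain ⟨x, hx1, hx⟩ := S.X_nt s hs
  refine ⟨x, Layout.Supp.mono hx (S.R_lt s hs), fun n' ⟨ρ', _, hn'⟩ hb => ?_⟩
  have hdec := (S.orient s hs ρ⁻¹ (inv_mem hρ)).resolve_left fun h => hnot (h a b hR)
  have hx' : x = n' * (n'⁻¹ * x * n) * n⁻¹ := by group
  have key : ∀ i j, S.mat x i j ≠ 0 → ρ'⁻¹ (S.pos i) ≤ ρ⁻¹ (S.pos j) := by
    intro i j hij
    rw [hx', map_mul, map_mul, Matrix.mul_apply] at hij
    obtain ⟨r, -, hr⟩ := Finset.exists_ne_zero_of_sum_ne_zero hij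
    rw [Matrix.mul_apply] at hr
    obtain ⟨l, -, hl⟩ := Finset.exists_ne_zero_of_sum_ne_zero (left_ne_zero_of_mul hr)
    rw [hn' i l (left_ne_zero_of_mul hl)]
    have a2 := Layout.Supp.entry hb (right_ne_zero_of_mul hl)
    rw [hn.inv r j (right_ne_zero_of_mul hr)] at a2
    simpa using a2
  have hxU : S.Supp (· < ·) x := Layout.Supp.mono hx (S.R_lt s hs)
  have he : ρ'⁻¹ * ρ = 1 := by
    refine perm_le_eq_one _ fun c => ?_
    obtain ⟨j, hj⟩ := S.surj (ρ c)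
    have := key j j (by rw [Layout.Supp.diag hxU j]; exact one_ne_zero)
    rw [Equiv.Perm.mul_apply, ← hj]
    refine this.trans (le_of_eq ?_)
    rw [hj]; simp
  obtain ⟨i, j, hij⟩ : ∃ i j, (S.mat x - 1) i j ≠ 0 := by
    by_contra hc
    push Not at hc
    exact hx1 (S.inj (by rw [map_one, ← sub_eq_zero]; ext i j; exact hc i j))
  have h2 := hx i j hij
  have hne : i ≠ j := fun e => (S.R_lt s hs _ _ h2).ne (by rw [e])
  have h3 := key i j (by simpa [Matrix.one_apply_ne hne] using hij)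
  rw [eq_inv_of_mul_eq_one_left he] at h3
  exact absurd (hdec _ _ h2) (not_lt_of_ge h3)

theorem upper_diag_mul (hinj : Function.Injective S.pos) {g h : G} (hg : g ∈ S.apt.B) (hh : h ∈ S.apt.B)
    (i : ι) : S.mat (g * h) i i = S.mat g i i * S.mat h i i := by
  rw [map_mul, Matrix.mul_apply, Finset.sum_eq_single i]
  · intro b _ hb
    by_contra hc
    exact hb (hinj (le_antisymm (Layout.Supp.entry hh (right_ne_zero_of_mul hc))
      (Layout.Supp.entry hg (left_ne_zero_of_mul hc))))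
  · simp

theorem sys_comm (hinj : Function.Injective S.pos) {g h : G} (hg : g ∈ S.apt.B) (hh : h ∈ S.apt.B) :
    g * h * g⁻¹ * h⁻¹ ∈ S.apt.U := by
  have hc : g * h * g⁻¹ * h⁻¹ ∈ S.apt.B := mul_mem (mul_mem (mul_mem hg hh) (inv_mem hg)) (inv_mem hh)
  intro i j hij
  refine lt_of_le_of_ne (hc i j hij) fun e => hij ?_
  obtain rfl := hinj e
  have h1 := upper_diag_mul S hinj hg (inv_mem hg) i
  have h2 := upper_diag_mul S hinj hh (inv_mem hh) i
  rw [mul_inv_cancel, map_one, Matrix.one_apply_eq] at h1 h2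
  rw [Matrix.sub_apply, Matrix.one_apply_eq, upper_diag_mul S hinj (mul_mem (mul_mem hg hh) (inv_mem hg)) (inv_mem hh),
    upper_diag_mul S hinj (mul_mem hg hh) (inv_mem hg), upper_diag_mul S hinj hg hh]
  linear_combination -(S.mat h i i * S.mat h⁻¹ i i) * h1 - h2

theorem sys_normalised {p : ℕ} [Fact p.Prime] [CharP F p] (hinj : Function.Injective S.pos)
    (hblock : ∀ g, S.Supp (· ≤ ·) g → (∃ j : ℕ, g ^ p ^ j = 1) →
      ∀ i j, S.pos i = S.pos j → (S.mat g - 1) i j = 0)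
    {H : Subgroup G} (hUH : S.apt.U ≤ H) {g : G}
    (hg : g ∈ Subgroup.normalizer (S.apt.U : Set G)) : g ∈ Subgroup.normalizer (H : Set G) := by
  have hpB : ∀ g ∈ S.apt.B, (∃ j : ℕ, g ^ p ^ j = 1) → g ∈ S.apt.U := fun g hg hp i j hij =>
    lt_of_le_of_ne (hg i j hij) fun e => hij (hblock g hg hp i j e)
  refine overgroup_normalised S.apt (S.pgroup (p := p)) hpB (fun n hn hnB => sys_sep S hn hnB)
    (fun a ha b hb => sys_comm S hinj ha hb) hUH
    (S.apt.mem_B_of_normalizes (fun n hn hnB => sys_sep S hn hnB) fun y hy => ?_)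
  have := (Subgroup.mem_normalizer_iff.1 (inv_mem hg) y).1 hy
  simpa using this

end

end CfsgLib.PronPSU
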