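import Cfsg.Agent.PronPSL.Two
import Cfsg.Agent.PronPSU.Good

/-!
Unitary groups of dimension two in odd characteristic.
-/

set_option autoImplicit false

namespace CfsgLib.PronPSU

open Matrix
open CfsgLib.PronPSL (el el_mul el_inj el_scalar el_det el_comm_I eI eI_coe eI_mem eI_sq IsJ UU CC WW
  mem_UU neg_one_mem_CC eI_mem_CC j_mem mem_sl eI_det scalar_of_UU_anti base_odd base_max WW_two)

variable {F : Type*} [Field F] [Finite F] {σ : F →+* F}

omit [Finite F] in
theorem el_mem_isom {g : GL (Fin 2) F} {a b : F} (hg : (g : Matrix (Fin 2) (Fin 2) F) = el a b)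
    (h1 : a * σ a + b * σ b = 1) (h2 : b * σ a - a * σ b = 0) : g ∈ isom σ (Fin 2) := by
  refine mem_isom.2 ?_
  rw [hg]
  ext i j
  fin_cases i <;> fin_cases j <;>
    simp [el, Matrix.mul_apply, Fin.sum_univ_two] <;>
    first | linear_combination h1 | linear_combination h2 | linear_combination -h2

omit [Finite F] in
theorem eI_isom : (eI : GL (Fin 2) F) ∈ isom σ (Fin 2) :=
  el_mem_isom eI_coe (by simp) (by simp)

theorem exists_anti (hne : σ ≠ RingHom.id F) (hinv : ∀ x, σ (σ x) = x) :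
    ∃ l : F, l ≠ 0 ∧ σ l = -l := by
  obtain ⟨x, hx⟩ : ∃ x, σ x ≠ x := by
    by_contra h
    push Not at h
    exact hne (RingHom.ext h)
  exact ⟨x - σ x, sub_ne_zero.2 (Ne.symm hx), by rw [map_sub, hinv]; ring⟩

/-- Every fixed element is the sum of two fixed squares. -/
theorem exists_fixed_squares (h2 : (2 : F) ≠ 0) {τ : F} (hτ : σ τ = τ) :
    ∃ s t : F, σ s = s ∧ σ t = t ∧ s * s + t * t = τ := by
  classical
  let K : Subfield F := RingHom.eqLocusField σ (RingHom.id F)
  have hmem : ∀ x, x ∈ K ↔ σ x = x := fun x => Iff.rfl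
  haveI := Fintype.ofFinite K
  have hodd : Fintype.card K % 2 = 1 :=
    FiniteField.odd_card_of_char_ne_two fun h => by
      haveI := ringChar.of_eq h
      exact h2 (by
        have h0 : (2 : K) = 0 := CharP.cast_eq_zero K 2
        exact (map_ofNat K.subtype 2).symm.trans ((congrArg K.subtype h0).trans (map_zero _)))
  obtain ⟨a, b, hab⟩ := FiniteField.exists_root_sum_quadratic
    (f := (Polynomial.X ^ 2 : Polynomial K))
    (g := Polynomial.X ^ 2 + Polynomial.C (-⟨τ, (hmem τ).2 hτ⟩ : K))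
    (Polynomial.degree_X_pow 2) (Polynomial.degree_X_pow_add_C (by norm_num) _) hodd
  simp at hab
  refine ⟨a, b, (hmem _).1 a.2, (hmem _).1 b.2, ?_⟩
  have h := congrArg (fun z : K => (z : F)) hab
  simp at h
  linear_combination h

theorem exists_J_isom (hne : σ ≠ RingHom.id F) (hinv : ∀ x, σ (σ x) = x) (h2 : (2 : F) ≠ 0) :
    ∃ j : GL (Fin 2) F, IsJ j ∧ j ∈ isom σ (Fin 2) := by
  obtain ⟨l, hl0, hl⟩ := exists_anti hne hinv
  obtain ⟨s, t, hs, ht, hst⟩ := exists_fixed_squares (σ := σ) h2 (τ := -(l * l)⁻¹) (by simp [hl])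
  set a := l * s with ha
  set b := l * t with hb
  have hab : a * a + b * b = -1 := by
    have e : a * a + b * b = l * l * (s * s + t * t) := by rw [ha, hb]; ring
    rw [e, hst, mul_neg, mul_inv_cancel₀ (mul_ne_zero hl0 hl0)]
  have hsa : σ a = -a := by rw [ha, map_mul, hl, hs]; ring
  have hsb : σ b = -b := by rw [hb, map_mul, hl, ht]; ring
  have hd : (!![a, b; b, -a] : Matrix (Fin 2) (Fin 2) F).det = 1 := by
    rw [Matrix.det_fin_two_of]; linear_combination -hab
  refine ⟨Matrix.GeneralLinearGroup.mkOfDetNeZero !![a, b; b, -a] (by rw [hd]; exact one_ne_zero),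
    ⟨?_, ?_, hd⟩, ?_⟩
  · refine Units.ext ?_
    rw [Units.val_mul, Units.val_neg, Units.val_mul, eI_coe]
    show !![a, b; b, -a] * el 0 1 = -(el 0 1 * !![a, b; b, -a])
    ext i j; fin_cases i <;> fin_cases j <;> simp [el, Matrix.mul_apply, Fin.sum_univ_two]
  · refine Units.ext ?_
    rw [Units.val_mul, Units.val_neg, Units.val_one]
    show !![a, b; b, -a] * !![a, b; b, -a] = -1
    ext i j; fin_cases i <;> fin_cases j <;> simp [Matrix.mul_apply, Fin.sum_univ_two] <;>
      first | ring1 | linear_combination hab | linear_combination -hab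
  · refine mem_isom.2 ?_
    show (!![a, b; b, -a] : Matrix (Fin 2) (Fin 2) F)ᵀ * (!![a, b; b, -a] : Matrix (Fin 2) (Fin 2) F).map σ = 1
    ext i j; fin_cases i <;> fin_cases j <;> simp [Matrix.mul_apply, Fin.sum_univ_two, hsa, hsb] <;>
      first | ring1 | linear_combination -hab

omit [Finite F] in
/-- The element with eigenvalues `u, v` on the isotropic lines of `i`. -/
theorem phi_mul {i : F} (hi : i * i = -1) (h2 : (2 : F) ≠ 0) (u v u' v' : F) :
    el ((u + v) / 2) ((u - v) / (2 * i)) * el ((u' + v') / 2) ((u' - v') / (2 * i)) =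
      el ((u * u' + v * v') / 2) ((u * u' - v * v') / (2 * i)) := by
  have hi0 : i ≠ 0 := fun h => by rw [h, mul_zero] at hi; exact one_ne_zero (neg_eq_zero.1 hi.symm)
  rw [el_mul]
  congr 1
  · field_simp
    first | ring1 | linear_combination (2 : F) * ((u + v) * (u' + v') - 2 * (u * u' + v * v')) * hi |
      linear_combination ((u + v) * (u' + v') - 2 * (u * u' + v * v')) * hi |
      linear_combination (-((u + v) * (u' + v') - 2 * (u * u' + v * v'))) * hi
  · field_simp
    ring

theorem exists_c_isom {i u v : F} (hi : i * i = -1) (h2 : (2 : F) ≠ 0) (hu : u ^ 8 = 1) (hv : v ^ 8 = 1)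
    (huv : u * u ≠ v * v)
    (h1 : (u + v) / 2 * σ ((u + v) / 2) + (u - v) / (2 * i) * σ ((u - v) / (2 * i)) = 1)
    (h0 : (u - v) / (2 * i) * σ ((u + v) / 2) - (u + v) / 2 * σ ((u - v) / (2 * i)) = 0) :
    ∃ c : GL (Fin 2) F, c ∈ CC F ∧ c ∈ isom σ (Fin 2) ∧
      ∀ s : F, (c : Matrix (Fin 2) (Fin 2) F) * c ≠ s • 1 := by
  have hi0 : i ≠ 0 := fun h => by rw [h, mul_zero] at hi; exact one_ne_zero (neg_eq_zero.1 hi.symm)
  set a := (u + v) / 2 with ha
  set b := (u - v) / (2 * i) with hb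
  have hdet : a * a + b * b = u * v := by
    rw [ha, hb]
    field_simp
    first | ring1 | linear_combination ((u + v) ^ 2 - 4 * (u * v)) * hi
  have huv0 : u * v ≠ 0 := mul_ne_zero (fun h => by simp [h] at hu) (fun h => by simp [h] at hv)
  set c : GL (Fin 2) F := GeneralLinearGroup.mkOfDetNeZero (el a b) (by rw [el_det, hdet]; exact huv0)
  have hc : (c : Matrix (Fin 2) (Fin 2) F) = el a b := rfl
  have hpow : ∀ k : ℕ, (c : Matrix (Fin 2) (Fin 2) F) ^ (k + 1) =
      el ((u ^ (k + 1) + v ^ (k + 1)) / 2) ((u ^ (k + 1) - v ^ (k + 1)) / (2 * i)) := by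
    intro k
    induction k with
    | zero => simp [hc, ha, hb]
    | succ k ih => rw [pow_succ, ih, hc, ha, hb, phi_mul hi h2, ← pow_succ, ← pow_succ]
  refine ⟨c, ⟨mem_UU.2 (Units.ext (el_comm_I a b)), 3, Units.ext ?_⟩, el_mem_isom hc h1 h0, fun s hs => ?_⟩
  · rw [Units.val_pow_eq_pow_val, Units.val_one, show 2 ^ 3 = 7 + 1 from rfl, hpow, hu, hv, sub_self,
      zero_div, el_scalar, show ((1 : F) + 1) / 2 = 1 by rw [one_add_one_eq_two, div_self h2], one_smul]
  · have h := hpow 1
    rw [pow_two, hs, ← el_scalar] at h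
    have := (el_inj h).2
    rw [eq_comm, div_eq_zero_iff, sub_eq_zero] at this
    rcases this with h' | h'
    · exact huv (by linear_combination h')
    · exact mul_ne_zero h2 hi0 h'

/-- The base of the induction. -/
theorem exists_good_two {q : ℕ} (hq : Odd q) (hne : σ ≠ RingHom.id F) (hinv : ∀ x, σ (σ x) = x)
    (hpow : ∀ x, σ x = x ^ q) (hcard : Nat.card F = q ^ 2) (h2 : (2 : F) ≠ 0) :
    ∃ S : Subgroup (GL (Fin 2) F), Good σ S := by
  classical
  haveI := Fintype.ofFinite F
  obtain ⟨k, hk⟩ := hq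
  obtain ⟨m, hm⟩ := Nat.even_mul_succ_self k
  have h8 : (Fintype.card F - 1) = 8 * m := by
    rw [← Nat.card_eq_fintype_card, hcard, hk]
    have : (2 * k + 1) ^ 2 = 4 * (k * (k + 1)) + 1 := by ring
    omega
  obtain ⟨g, hg⟩ := IsCyclic.exists_generator (α := Fˣ)
  have hord : orderOf g = 8 * m := by
    rw [orderOf_eq_card_of_forall_mem_zpowers hg, Nat.card_units, Nat.card_eq_fintype_card, h8]
  have hm0 : 0 < m := by
    have := Fintype.one_lt_card (α := F)
    omega
  set u₀ : F := ((g ^ m : Fˣ) : F) with hu₀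
  have hu8 : u₀ ^ 8 = 1 := by
    rw [hu₀, ← Units.val_pow_eq_pow_val, ← pow_mul, mul_comm, ← hord, pow_orderOf_eq_one, Units.val_one]
  have hu4 : u₀ ^ 4 = -1 := by
    have h : u₀ ^ 4 * u₀ ^ 4 = 1 := by rw [← pow_add]; exact hu8
    refine (mul_self_eq_one_iff.1 h).resolve_left fun h4 => ?_
    have h4' : g ^ (m * 4) = 1 := Units.ext (by
      rw [pow_mul, Units.val_pow_eq_pow_val, Units.val_one]; exact h4)
    have := Nat.le_of_dvd (by omega) (orderOf_dvd_of_pow_eq_one h4')
    omega
  set i : F := u₀ ^ 2 with hid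
  have hi : i * i = -1 := by rw [hid, ← pow_add]; exact hu4
  have hi0 : i ≠ 0 := fun h => by rw [h, mul_zero] at hi; exact one_ne_zero (neg_eq_zero.1 hi.symm)
  have hsi : σ i = i ∨ σ i = -i := mul_self_eq_mul_self_iff.1 (by rw [← map_mul, hi, map_neg, map_one])
  have hne2 : ∀ x : F, x ≠ 0 → x ≠ -x := fun x hx h => hx
    ((mul_eq_zero.1 (show (2 : F) * x = 0 by linear_combination h)).resolve_left h2)
  obtain ⟨c, hcC, hcU, hc2⟩ : ∃ c : GL (Fin 2) F, c ∈ CC F ∧ c ∈ isom σ (Fin 2) ∧
      ∀ s : F, (c : Matrix (Fin 2) (Fin 2) F) * c ≠ s • 1 := by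
    rcases hsi with hsi | hsi
    · have hu0 : u₀ ≠ 0 := Units.ne_zero _
      have hsu : σ u₀ ≠ 0 := (map_ne_zero σ).2 hu0
      refine exists_c_isom (σ := σ) (u := u₀) (v := (σ u₀)⁻¹) hi h2 hu8
        (by rw [inv_pow, ← map_pow, hu8, map_one, inv_one]) (fun h => ?_) ?_ ?_
      · -- the norm of an element of order eight has order four
        have hk2 : k % 2 = 0 := by
          by_contra hk2
          refine hne2 i hi0 ?_
          calc i = σ i := hsi.symm
            _ = u₀ ^ (8 * (k / 2) + 4 + 2) := by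
              rw [hpow, hid, ← pow_mul, hk]; congr 1; omega
            _ = -i := by rw [pow_add, pow_add, pow_mul, hu8, one_pow, one_mul, hu4, hid, neg_one_mul]
        have h1 : (u₀ * σ u₀) * (u₀ * σ u₀) = 1 := by
          rw [show u₀ * σ u₀ * (u₀ * σ u₀) = u₀ * u₀ * (σ u₀ * σ u₀) by ring, h]
          field_simp
        rw [hpow, ← pow_succ', ← pow_add, hk, show 2 * k + 1 + 1 + (2 * k + 1 + 1) = 8 * (k / 2) + 4 by omega,
          pow_add, pow_mul, hu8, one_pow, one_mul, hu4] at h1
        exact hne2 1 one_ne_zero h1.symm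
      · simp only [map_div₀, map_add, map_sub, map_mul, map_inv₀, map_ofNat, hsi, hinv]
        field_simp
        linear_combination (1 - u₀ * σ u₀) ^ 2 * hi
      · simp only [map_div₀, map_add, map_sub, map_mul, map_inv₀, map_ofNat, hsi, hinv]
        field_simp
        ring
    · refine exists_c_isom (σ := σ) (u := i) (v := 1) hi h2
        (by rw [hid, ← pow_mul, mul_comm, pow_mul, hu8, one_pow]) (one_pow 8) (fun h => ?_) ?_ ?_
      · rw [hi, one_mul] at h
        exact hne2 1 one_ne_zero h.symm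
      · simp only [map_div₀, map_add, map_sub, map_mul, map_one, map_ofNat, hsi]
        field_simp
        first
          | linear_combination (-2 : F) * hi
          | linear_combination (-2 : F) * hi - hu8
          | linear_combination (-2 : F) * hi + hu8
          | linear_combination -hu8
      · simp only [map_div₀, map_add, map_sub, map_mul, map_one, map_ofNat, hsi]
        field_simp
        first
          | linear_combination (-2 : F) * hi
          | linear_combination (-2 : F) * hi - hu8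
          | linear_combination (-2 : F) * hi + hu8
          | linear_combination -hu8
  obtain ⟨j, hj, hjU⟩ := exists_J_isom hne hinv h2
  refine ⟨WW hj ⊓ isom σ (Fin 2), inf_le_right, (WW_two hj).to_le inf_le_left,
    ⟨Or.inl neg_one_mem_CC, neg_one_mem_isom σ⟩, by simp, inferInstance, ?_, ?_, ?_⟩
  · intro X hX
    exact scalar_of_UU_anti h2 hj (hX _ ⟨⟨Or.inl eI_mem_CC, eI_isom⟩, mem_sl.2 eI_det⟩)
      (hX _ ⟨⟨j_mem hj, hjU⟩, mem_sl.2 hj.det⟩)
  · intro y _ hodd hy
    exact base_odd hj h2 inf_le_left (⟨j_mem hj, hjU⟩) (c := c) ⟨Or.inl hcC, hcU⟩ hcC.1 hc2 hodd hy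
  · intro y hyU hy2 hy
    exact ⟨base_max hj h2 inf_le_left (⟨j_mem hj, hjU⟩) (c := c) ⟨Or.inl hcC, hcU⟩ hcC.1 hc2 hy2 hy, hyU⟩

end CfsgLib.PronPSU
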