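import Cfsg.Agent.PronPSL.Lift
import Cfsg.Agent.PronPSU.Overgroup
import Cfsg.Agent.PronPSU.Two
import Cfsg.Agent.StChar.SU

/-!
Subgroups of odd index of `PSU` in two-power dimension are pronormal.
-/

set_option autoImplicit false

namespace CfsgLib.PronPSU

open Matrix
open CfsgLib.PronPSL (sl mem_sl mem_normalizer_of_forall conj_mem_of_normalizer pow_two_mem sl_conj
  isPronormal_of_all isPronormal_of_comap pronormal_witness_of_normalizer conj_eq_of_mem)

section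
variable {ι : Type*} [Fintype ι] [DecidableEq ι] {F : Type*} [Field F] [Finite F] {σ : F →+* F}
variable {G : Type*} [Group G] [Finite G]

theorem ns_of_goodSL {S : Subgroup (GL ι F)} (hS : GoodSL σ S) (f : G →* GL ι F)
    (hinj : Function.Injective f) (hrange : f.range = isom σ ι ⊓ sl ι F) :
    ∃ P : Sylow 2 G, ∀ g ∈ Subgroup.normalizer ((P : Subgroup G) : Set G),
      g ∈ (P : Subgroup G) ⊔ Subgroup.center G := by
  classical
  haveI := Fact.mk Nat.prime_two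
  have hfU : ∀ g, f g ∈ isom σ ι ∧ f g ∈ sl ι F := fun g => by
    have : f g ∈ f.range := ⟨g, rfl⟩
    rw [hrange] at this
    exact this
  set T := S.comap f with hT
  have hTn : ∀ g ∈ Subgroup.normalizer (T : Set G),
      f g ∈ Subgroup.normalizer ((S ⊓ sl ι F : Subgroup (GL ι F)) : Set (GL ι F)) := by
    intro g hg
    refine mem_normalizer_of_forall fun s hs => ⟨?_, sl_conj hs.2⟩
    obtain ⟨s', hs'⟩ : s ∈ f.range := by rw [hrange]; exact ⟨hS.le hs.1, hs.2⟩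
    have := conj_mem_of_normalizer hg (show s' ∈ T by rw [hT, Subgroup.mem_comap, hs']; exact hs.1)
    rw [hT, Subgroup.mem_comap, map_mul, map_mul, map_inv, hs'] at this
    exact this
  have key : ∀ g ∈ Subgroup.normalizer (T : Set G), g ∈ T ⊔ Subgroup.center G := by
    intro g hg
    obtain ⟨k, m, hm, hkm⟩ := Nat.exists_eq_pow_mul_and_not_dvd (orderOf_pos g).ne' 2 (by norm_num)
    have hmodd : Odd m := Nat.odd_iff.2 (by omega)
    have hu : g ^ m ∈ T := by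
      refine Subgroup.mem_comap.2 (hS.maximal _ (hfU _).1 ⟨k, ?_⟩ (hTn _ (pow_mem hg m)))
      rw [← map_pow, ← pow_mul, mul_comm, ← hkm, pow_orderOf_eq_one, map_one]
    have hw : g ^ 2 ^ k ∈ Subgroup.center G := by
      obtain ⟨c, hc⟩ := hS.odd (f (g ^ 2 ^ k)) (hfU _).1 (hmodd.of_dvd_nat (orderOf_dvd_of_pow_eq_one (by
        rw [← map_pow, ← pow_mul, ← hkm, pow_orderOf_eq_one, map_one]))) (hTn _ (pow_mem hg _))
      refine Subgroup.mem_center_iff.2 fun x => hinj (Units.ext ?_)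
      rw [map_mul, map_mul, Units.val_mul, Units.val_mul, hc, mul_smul_comm, smul_mul_assoc, mul_one, one_mul]
    obtain ⟨a, b, hab⟩ : IsCoprime ((2 ^ k : ℕ) : ℤ) (m : ℤ) :=
      Nat.Coprime.isCoprime ((Nat.coprime_two_left.2 hmodd).pow_left k)
    have e : g = (g ^ m) ^ b * (g ^ 2 ^ k) ^ a := by
      rw [← zpow_natCast g m, ← zpow_natCast g (2 ^ k), ← _root_.zpow_mul, ← _root_.zpow_mul,
        ← _root_.zpow_add, show (m : ℤ) * b + ((2 ^ k : ℕ) : ℤ) * a = 1 by linarith, _root_.zpow_one]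
    rw [e]
    exact mul_mem (Subgroup.mem_sup_left (zpow_mem hu b)) (Subgroup.mem_sup_right (zpow_mem hw a))
  have hP : IsPGroup 2 T := hS.two.comap_of_injective f hinj
  obtain ⟨P, hTP⟩ := hP.exists_le_sylow
  have hPT : (P : Subgroup G) = T := by
    refine le_antisymm ?_ hTP
    by_contra hlt
    have hne : T.subgroupOf P ≠ ⊤ := fun h => hlt (Subgroup.subgroupOf_eq_top.mp h)
    haveI : Group.IsNilpotent P := P.isPGroup'.isNilpotent
    have hlt' := Group.normalizerCondition_of_isNilpotent (G := P) _ (lt_top_iff_ne_top.mpr hne)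
    obtain ⟨⟨x, hxP⟩, hxN, hxT⟩ := SetLike.exists_of_lt hlt'
    have hxn : x ∈ Subgroup.normalizer (T : Set G) :=
      mem_normalizer_of_forall fun s hs => (Subgroup.mem_normalizer_iff.1 hxN ⟨s, hTP hs⟩).1 hs
    obtain ⟨j, hj⟩ := pow_two_mem P.isPGroup' hxP
    exact hxT (Subgroup.mem_comap.2 (hS.maximal _ (hfU _).1
      ⟨j, by rw [← map_pow]; exact (congrArg f hj).trans (map_one f)⟩ (hTn x hxn)))
  exact ⟨P, fun g hg => by rw [hPT] at hg ⊢; exact key g hg⟩

end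

variable {F : Type*} [Field F] [Fintype F] {q : ℕ}

theorem exists_good (C : CfsgLib.UGeom.Conj F q) (hq : Odd q) (h2 : (2 : F) ≠ 0) :
    ∀ k : ℕ, ∃ (ι : Type) (_ : Fintype ι) (_ : DecidableEq ι),
      Fintype.card ι = 2 ^ (k + 1) ∧ ∃ S : Subgroup (GL ι F), Good C.σ S
  | 0 => by
    obtain ⟨S, hS⟩ := exists_good_two hq C.ne_id C.invol C.pow
      (by rw [Nat.card_eq_fintype_card, C.card]) h2
    exact ⟨Fin 2, inferInstance, inferInstance, by simp, S, hS⟩
  | k + 1 => by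
    obtain ⟨ι, i1, i2, hc, S, hS⟩ := exists_good C hq h2 k
    exact ⟨ι ⊕ ι, inferInstance, inferInstance, by rw [Fintype.card_sum, hc]; ring,
      CfsgLib.PronPSL.double S, good_double hS h2⟩

theorem mem_SU_iff (C : CfsgLib.UGeom.Conj F q) {n : ℕ} (A : Matrix.SpecialLinearGroup (Fin n) F) :
    A ∈ Cfsg.SU n F q ↔ (A : Matrix (Fin n) (Fin n) F)ᵀ * (A : Matrix (Fin n) (Fin n) F).map C.σ = 1 := by
  have e : ∀ u v : Fin n → F, Cfsg.hermForm n F q u v = u ⬝ᵥ (C.σ ∘ v) := fun u v => by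
    simp [Cfsg.hermForm, dotProduct, C.pow]
  have key : ∀ u v : Fin n → F, Cfsg.hermForm n F q (A.1 *ᵥ u) (A.1 *ᵥ v) =
      u ⬝ᵥ ((A.1ᵀ * A.1.map C.σ) *ᵥ (C.σ ∘ v)) := fun u v => by
    rw [e, ← Matrix.mulVec_mulVec, show C.σ ∘ (A.1 *ᵥ v) = A.1.map C.σ *ᵥ (C.σ ∘ v) from
      funext (C.σ.map_mulVec A.1 v), dotProduct_comm u, Matrix.mulVec_transpose,
      ← Matrix.dotProduct_mulVec, dotProduct_comm]
  constructor
  · intro h
    ext a b
    have := (key (Pi.single a 1) (Pi.single b 1)).symm.trans (h _ _)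
    have hb : C.σ ∘ (Pi.single b (1 : F) : Fin n → F) = Pi.single b 1 := by
      funext x; by_cases hx : x = b <;> simp [hx]
    rw [hb, e, hb] at this
    simpa [Matrix.one_apply, Pi.single_apply, eq_comm] using this
  · intro h u v
    show Cfsg.hermForm n F q (A.1 *ᵥ u) (A.1 *ᵥ v) = _
    rw [key, h, Matrix.one_mulVec, e]

theorem exists_ns (C : CfsgLib.UGeom.Conj F q) (hq : Odd q) (h2 : (2 : F) ≠ 0) (w : ℕ) (hw : 2 ≤ w) :
    ∃ P : Sylow 2 (Cfsg.SU (2 ^ w) F q),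
      ∀ g ∈ Subgroup.normalizer ((P : Subgroup (Cfsg.SU (2 ^ w) F q)) : Set (Cfsg.SU (2 ^ w) F q)),
        g ∈ (P : Subgroup (Cfsg.SU (2 ^ w) F q)) ⊔ Subgroup.center (Cfsg.SU (2 ^ w) F q) := by
  classical
  obtain ⟨k, rfl⟩ : ∃ k, w = k + 2 := ⟨w - 2, by omega⟩
  obtain ⟨ι, i1, i2, hc, S, hS⟩ := exists_good C hq h2 k
  obtain ⟨e⟩ : Nonempty (Fin (2 ^ (k + 2)) ≃ ι ⊕ ι) :=
    ⟨(Fintype.equivFinOfCardEq (by rw [Fintype.card_sum, hc]; ring)).symm⟩
  haveI : Finite (Matrix.SpecialLinearGroup (Fin (2 ^ (k + 2))) F) :=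
    Finite.of_injective (fun a : Matrix.SpecialLinearGroup (Fin (2 ^ (k + 2))) F =>
      (a : Matrix (Fin (2 ^ (k + 2))) (Fin (2 ^ (k + 2))) F)) Subtype.val_injective
  let R := Matrix.reindexAlgEquiv F F e
  let f : Cfsg.SU (2 ^ (k + 2)) F q →* GL (ι ⊕ ι) F :=
    (Units.map R.toMonoidHom).comp (Matrix.SpecialLinearGroup.toGL.comp (Cfsg.SU (2 ^ (k + 2)) F q).subtype)
  have hf : ∀ A, ((f A : GL (ι ⊕ ι) F) : Matrix (ι ⊕ ι) (ι ⊕ ι) F) =
      R (A : Matrix.SpecialLinearGroup (Fin (2 ^ (k + 2))) F).1 := fun A => rfl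
  refine ns_of_goodSL (goodSL_double hS h2) f (fun A B h => Subtype.ext (Subtype.ext (R.injective ?_))) ?_
  · rw [← hf, ← hf, h]
  · have hR : ∀ M : Matrix (Fin (2 ^ (k + 2))) (Fin (2 ^ (k + 2))) F,
        (R M)ᵀ * (R M).map C.σ = R (Mᵀ * M.map C.σ) := fun M => by
      rw [map_mul]; rfl
    ext g
    constructor
    · rintro ⟨A, rfl⟩
      refine ⟨mem_isom.2 ?_, mem_sl.2 ?_⟩
      · rw [hf, hR, (mem_SU_iff C _).1 A.2, map_one]
      · rw [hf, Matrix.det_reindexAlgEquiv, (A : Matrix.SpecialLinearGroup (Fin (2 ^ (k + 2))) F).2]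
    · rintro ⟨hgU, hgd⟩
      have hd : (R.symm (g : Matrix (ι ⊕ ι) (ι ⊕ ι) F)).det = 1 := by
        have := mem_sl.1 hgd
        rw [← R.apply_symm_apply (g : Matrix (ι ⊕ ι) (ι ⊕ ι) F), Matrix.det_reindexAlgEquiv] at this
        exact this
      refine ⟨⟨⟨_, hd⟩, (mem_SU_iff C _).2 (R.injective ?_)⟩, Units.ext ?_⟩
      · rw [← hR, R.apply_symm_apply, map_one]; exact mem_isom.1 hgU
      · rw [hf]; exact R.apply_symm_apply _

theorem pronormal_psu (hF : Fintype.card F = q ^ 2) (w : ℕ) (hw : 2 ≤ w)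
    (H : Subgroup (Cfsg.PSU (2 ^ w) F q)) (hH : Odd H.index) : Cfsg.IsPronormal H := by
  classical
  haveI := Fact.mk Nat.prime_two
  haveI : Finite (Matrix.SpecialLinearGroup (Fin (2 ^ w)) F) :=
    Finite.of_injective (fun a : Matrix.SpecialLinearGroup (Fin (2 ^ w)) F =>
      (a : Matrix (Fin (2 ^ w)) (Fin (2 ^ w)) F)) Subtype.val_injective
  obtain ⟨C⟩ := CfsgLib.UGeom.nonempty_conj hF
  set π := QuotientGroup.mk' (Subgroup.center (Cfsg.SU (2 ^ w) F q))
  have hπ : Function.Surjective π := QuotientGroup.mk'_surjective _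
  refine isPronormal_of_comap π hπ ?_
  have hK2 : ¬ 2 ∣ (H.comap π).index := by
    rw [Subgroup.index_comap_of_surjective _ hπ]
    exact fun h => (Nat.not_even_iff_odd.2 hH) (even_iff_two_dvd.2 h)
  by_cases h2 : (2 : F) = 0
  · haveI : CharP F 2 := CharTwo.of_one_ne_zero_of_two_eq_zero one_ne_zero h2
    obtain ⟨k, hk⟩ : ∃ k, 2 ^ w = (k + 1) + (k + 1) + 0 := by
      obtain ⟨v, rfl⟩ : ∃ v, w = v + 1 := ⟨w - 1, by omega⟩
      refine ⟨2 ^ v - 1, ?_⟩
      have : 0 < 2 ^ v := Nat.two_pow_pos v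
      rw [pow_succ]
      omega
    obtain ⟨D⟩ := CfsgLib.UTwoGen.nonempty_frame C hk
    let S := CfsgLib.StChar.SU.sys D
    have hinj : Function.Injective S.pos := CfsgLib.StChar.SU.pos_inj
    have hpB : ∀ g ∈ S.apt.B, (∃ j : ℕ, g ^ 2 ^ j = 1) → g ∈ S.apt.U := fun g hg hp i j hij =>
      lt_of_le_of_ne (hg i j hij) fun e => hij (CfsgLib.StChar.SU.hblock D g hg hp i j e)
    obtain ⟨P, hP⟩ := S.apt.U_sylow (S.pgroup (p := 2)) hpB fun n hn hnB => sys_sep S hn hnB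
    refine isPronormal_of_all P (fun L hL g hg => ?_) hK2
    rw [hP] at hL hg
    exact pronormal_witness_of_normalizer (conj_eq_of_mem
      (sys_normalised S (p := 2) hinj (CfsgLib.StChar.SU.hblock D) hL hg))
  · have hq : Odd q := by
      have h1 := FiniteField.odd_card_of_char_ne_two (F := F) (fun h => h2 (by
        haveI := ringChar.of_eq h
        exact CharP.cast_eq_zero F 2))
      rw [hF] at h1
      exact (Nat.odd_pow_iff two_ne_zero).1 (Nat.odd_iff.2 h1)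
    obtain ⟨P, hP⟩ := exists_ns C hq h2 w hw
    have hZ : Subgroup.center (Cfsg.SU (2 ^ w) F q) ≤ H.comap π := fun z hz => by
      rw [Subgroup.mem_comap, show π z = 1 from (QuotientGroup.eq_one_iff z).2 hz]
      exact one_mem H
    obtain ⟨S, hS⟩ := CfsgLib.PronPSL.exists_sylow_le hK2
    obtain ⟨c, rfl⟩ := MulAction.exists_smul_eq (Cfsg.SU (2 ^ w) F q) P S
    refine CfsgLib.PronPSL.isPronormal_of_sylow _ hS fun g hg =>
      pronormal_witness_of_normalizer (conj_eq_of_mem (Subgroup.le_normalizer ?_))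
    have hg' : c⁻¹ * g * c ∈ Subgroup.normalizer ((P : Subgroup (Cfsg.SU (2 ^ w) F q)) : Set _) := by
      refine Sylow.smul_eq_iff_mem_normalizer.1 ?_
      rw [mul_smul, mul_smul, Sylow.smul_eq_iff_mem_normalizer.2 hg, inv_smul_smul]
    obtain ⟨s, hs, z, hz, hsz⟩ := Subgroup.mem_sup_of_normal_right.1 (hP _ hg')
    rw [show g = (c * s * c⁻¹) * (c * z * c⁻¹) by
      rw [show c * s * c⁻¹ * (c * z * c⁻¹) = c * (s * z) * c⁻¹ by group, hsz]; group]
    refine mul_mem (hS ?_) (hZ (Subgroup.Normal.conj_mem inferInstance z hz c))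
    rw [Sylow.coe_subgroup_smul]
    exact ⟨s, hs, rfl⟩

end CfsgLib.PronPSU
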